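import Cfsg.Agent.H205.RC.Base

/-!
# S3510, row F, `box_norm` (helper205)
-/

set_option autoImplicit false

namespace Cfsg.Agent.H205.RC

open Cfsg QuadraticMap Module
open Cfsg.Agent.LieClassical.OrthCore Cfsg.Agent.LieClassical.OrthTrans
open Cfsg.Agent.LieClassical.OrthSimple Cfsg.Agent.ClassicalGeometry.OrthSemi
open Cfsg.Agent.H93.RC

/-- **`box_norm`** (odd dimension): a linear lift is a scalar times an isometry of the right order. -/
theorem box_norm {F V : Type*} [Field F] [Finite F] [AddCommGroup V] [Module F V]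
    [FiniteDimensional F V] {Q : QuadraticForm F V} (hG : Good Q) {p : ℕ} [CharP F p] (hp2 : p ≠ 2)
    (hodd : Odd (Module.finrank F V)) (M : Gam Q) (hM : IsLin M) {r : ℕ} (hr : r.Prime)
    (hpow : IsScal (M ^ r)) :
    ∃ (T : V ≃ₗ[F] V) (a : F), T ∈ O Q ∧ T ^ r = 1 ∧ a ≠ 0 ∧ ∀ v, M.1 v = a • T v := by
  have h2 : (2 : F) ≠ 0 := by
    intro h
    have h1 : ((2 : ℕ) : F) = 0 := by exact_mod_cast h
    rw [CharP.cast_eq_zero_iff F p] at h1
    have hp : p.Prime ∨ p = 0 := CharP.char_is_prime_or_zero F p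
    rcases hp with hp | hp
    · exact hp2 ((Nat.prime_dvd_prime_iff_eq hp Nat.prime_two).1 h1)
    · subst hp
      norm_num at h1
  obtain ⟨g, a, ha, h1, h3, h4⟩ := exists_iso hG.nondeg h2 hodd hM hr hpow
  exact ⟨g, a, h3, h4, ha, h1⟩

end Cfsg.Agent.H205.RC
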